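import Cfsg.Agent.H908.IFE.Equiv
import Cfsg.Agent.H209.IF.Kill
import Cfsg.Agent.LieClassical.OrthSimple

set_option autoImplicit false
set_option linter.unusedSectionVars false

namespace Cfsg.Agent.H829.IFE

open QuadraticMap Module Subgroup Cfsg Cfsg.Agent.LieClassical.OrthCore Cfsg.Agent.LieClassical.OrthTrans
  Cfsg.Agent.LieClassical.OrthForms Cfsg.Agent.H122.OrthTy Cfsg.Agent.H209.Fxy

theorem charP_two_of_even {F : Type*} [Field F] [Fintype F] (h : Even (Fintype.card F)) : CharP F 2 := by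
  obtain ⟨p, hp⟩ := CharP.exists F
  obtain ⟨n, hpp, hc⟩ := FiniteField.card F p
  have h1 : p = 2 := by
    rw [hc, Nat.even_pow] at h
    exact (hpp.even_iff).1 h.1
  rwa [h1] at hp

/-- The abstract statement. -/
def Abs : Prop := ∀ (F V : Type) [Field F] [Fintype F] [CharP F 2] [AddCommGroup V] [Module F V] [Fintype V]
    (Q : QuadraticForm F V) (_ : Good Q) (l : ℕ) (_ : 4 ≤ l) (_ : finrank F V = 2 * l) [IsSimpleGroup ↥(E Q)]
    (_ : ∃ a b : ↥(E Q), a * b ≠ b * a), KillE ↥(E Q)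

theorem hna_of {F V : Type*} [Field F] [AddCommGroup V] [Module F V] {Q : QuadraticForm F V} (hG : Good Q) :
    ∃ a b : ↥(E Q), a * b ≠ b * a := by
  by_contra hcon
  push Not at hcon
  obtain ⟨g, hg, hg1⟩ := Cfsg.Agent.LieClassical.OrthSimple.good_E_ne_bot hG
  apply hg1
  have h1 : ⁅E Q, E Q⁆ = (⊥ : Subgroup (V ≃ₗ[F] V)) := by
    rw [Subgroup.commutator_eq_bot_iff_le_centralizer]
    intro x hx
    rw [Subgroup.mem_centralizer_iff]
    intro y hy
    exact congrArg Subtype.val (hcon ⟨y, hy⟩ ⟨x, hx⟩)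
  rw [hG.E_perfect] at h1
  rw [h1] at hg
  exact hg

theorem killE_congr {T T' : Type*} [Group T] [Group T'] (e : T ≃* T') (h : KillE T) : KillE T' := by
  intro A Γ hI ⟨t, ht, ho⟩
  refine h _ _ (hI.map e.symm) ⟨e.symm t, ⟨t, ht, rfl⟩, ?_⟩
  rw [← ho]
  exact MulEquiv.orderOf_eq e.symm t

theorem plus_even_of (hA : Abs) (F : Type) [Field F] [Fintype F] (m : ℕ) (hev : Even (Fintype.card F)) (hm : 4 ≤ m)
    (hs : IsSimpleGroup (POmega F (quadFormPlus m F))) : KillE (POmega F (quadFormPlus m F)) := by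
  have := charP_two_of_even hev
  have : Fintype (Fin m ⊕ Fin m → F) := Fintype.ofFinite _
  obtain ⟨hG, -, ⟨e⟩, -⟩ := Cfsg.Agent.H908.IFE.equiv_plus (F := F) hm
  have : IsSimpleGroup ↥(E (plusForm m F)) := (MulEquiv.isSimpleGroup_congr e).2 hs
  refine killE_congr e (hA F _ (plusForm m F) hG m hm ?_ (hna_of hG))
  rw [Module.finrank_fintype_fun_eq_card, Fintype.card_sum, Fintype.card_fin]
  omega

theorem minus_even_of (hA : Abs) (F : Type) [Field F] [Fintype F] (m : ℕ) (a b : F) (hev : Even (Fintype.card F))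
    (hm : 4 ≤ m) (hz : ∀ z₁ z₂ : F, z₁ ^ 2 + a * z₁ * z₂ + b * z₂ ^ 2 = 0 → z₁ = 0 ∧ z₂ = 0)
    (hs : IsSimpleGroup (POmega F (quadFormMinus (m - 1) F a b))) : KillE (POmega F (quadFormMinus (m - 1) F a b)) := by
  have := charP_two_of_even hev
  have : Fintype ((Fin (m - 1) ⊕ Fin (m - 1)) ⊕ Fin 2 → F) := Fintype.ofFinite _
  obtain ⟨hG, -, ⟨e⟩, -⟩ := Cfsg.Agent.H908.IFE.equiv_minus (F := F) hm a b hz
  have : IsSimpleGroup ↥(E (minusForm (m - 1) F a b)) := (MulEquiv.isSimpleGroup_congr e).2 hs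
  refine killE_congr e (hA F _ (minusForm (m - 1) F a b) hG m hm ?_ (hna_of hG))
  rw [Module.finrank_fintype_fun_eq_card, Fintype.card_sum, Fintype.card_sum, Fintype.card_fin, Fintype.card_fin]
  omega

end Cfsg.Agent.H829.IFE
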