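import Cfsg.Agent.H829.IF.Cell
import Cfsg.Agent.H842.IF.Descent
import Cfsg.Agent.H237.IFE.Class
import Cfsg.Agent.H545.Fx.EndM

/-!
# S5719: the cells `plus_even`, `minus_even` (helper829; class bound: helper237, helper545; descent: helper842, helper999;
end: helper545; transfer: helper908)
-/

set_option autoImplicit false
set_option linter.unusedSectionVars false

namespace Cfsg.Agent.H829.IFE

open QuadraticMap Module Subgroup Cfsg Cfsg.Agent.LieClassical.OrthCore Cfsg.Agent.LieClassical.OrthTrans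
  Cfsg.Agent.LieClassical.OrthForms Cfsg.Agent.H122.OrthTy Cfsg.Agent.H209.Fxy

theorem abs : Abs := by
  intro F V _ _ _ _ _ _ Q hG l hl hd _ hna A Γ h ⟨t, ht, ho⟩
  obtain ⟨z, hz, hLR⟩ := Cfsg.Agent.H842.IFE.exists_LR
    (fun t ht k hk => Cfsg.Agent.H237.IFE.class_bound hG.nondeg rfl ht hk) hG.nondeg (by omega) hna h ht ho
  exact Cfsg.Agent.H545.Fx.end_game hG.nondeg (by omega) hna h hz hLR

/-- **Cell `plus_even`** -/
theorem plus_even (F : Type) [Field F] [Fintype F] (m : ℕ) (hev : Even (Fintype.card F)) (hm : 4 ≤ m)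
    (hs : IsSimpleGroup (POmega F (quadFormPlus m F))) : KillE (POmega F (quadFormPlus m F)) :=
  plus_even_of abs F m hev hm hs

/-- **Cell `minus_even`** -/
theorem minus_even (F : Type) [Field F] [Fintype F] (m : ℕ) (a b : F) (hev : Even (Fintype.card F))
    (hm : 4 ≤ m) (hz : ∀ z₁ z₂ : F, z₁ ^ 2 + a * z₁ * z₂ + b * z₂ ^ 2 = 0 → z₁ = 0 ∧ z₂ = 0)
    (hs : IsSimpleGroup (POmega F (quadFormMinus (m - 1) F a b))) : KillE (POmega F (quadFormMinus (m - 1) F a b)) :=
  minus_even_of abs F m a b hev hm hz hs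

end Cfsg.Agent.H829.IFE
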